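import Cfsg.Agent.OneC.Main
import Cfsg.Agent.Sp5.Main

/-!
# Simple groups with at most five element orders
-/

set_option autoImplicit false

namespace Cfsg.Agent.OneC

open Subgroup Cfsg.Agent.Local Cfsg.Agent.CIT Matrix

universe u

theorem six {S : Set ℕ} (hS : S.Finite) (h : S.ncard ≤ 5) {a b c d e f : ℕ}
    (hl : [a, b, c, d, e, f].Nodup) (ha : a ∈ S) (hb : b ∈ S) (hc : c ∈ S) (hd : d ∈ S) (he : e ∈ S)
    (hf : f ∈ S) : False := by
  have h1 := Set.ncard_le_ncard (s := ([a, b, c, d, e, f].toFinset : Set ℕ)) (t := S)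
    (fun x hx => by
      simp only [List.coe_toFinset, List.mem_cons, List.not_mem_nil, or_false, Set.mem_ofPred_eq] at hx
      rcases hx with rfl | rfl | rfl | rfl | rfl | rfl <;> assumption) hS
  rw [Set.ncard_coe_finset, List.toFinset_card_of_nodup hl] at h1
  simp at h1
  omega

theorem psl3_four {F : Type*} [Field F] (h2 : (2 : F) = 0) :
    4 ∈ Set.range (orderOf : ProjectiveSpecialLinearGroup (Fin 3) F → ℕ) := by
  have : Fact (Nat.Prime 2) := ⟨Nat.prime_two⟩
  let g : SpecialLinearGroup (Fin 3) F := ⟨!![1, 1, 0; 0, 1, 1; 0, 0, 1], by simp [det_fin_three]⟩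
  have h1 : (g ^ 2).1 = !![1, 0, 1; 0, 1, 0; 0, 0, 1] := by
    rw [sq]
    change g.1 * g.1 = _
    ext i j
    fin_cases i <;> fin_cases j <;> simp [g, Matrix.mul_apply, Fin.sum_univ_three] <;>
      linear_combination h2
  refine ⟨(g : ProjectiveSpecialLinearGroup (Fin 3) F), orderOf_eq_prime_pow (p := 2) (n := 1)
    (fun h3 => ?_) ?_⟩
  · rw [pow_one, ← QuotientGroup.mk_pow, QuotientGroup.eq_one_iff,
      Matrix.SpecialLinearGroup.mem_center_iff] at h3
    obtain ⟨r, -, hr⟩ := h3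
    have := congrFun (congrFun (hr.trans h1) 0) 2
    simp at this
  · rw [← QuotientGroup.mk_pow, pow_succ, pow_mul, pow_one, sq (g ^ 2)]
    refine congrArg _ (Subtype.ext ?_)
    change (g ^ 2).1 * (g ^ 2).1 = 1
    rw [h1]
    ext i j
    fin_cases i <;> fin_cases j <;> simp [Matrix.mul_apply, Fin.sum_univ_three]
    linear_combination h2

variable {G : Type u} [Group G] [Finite G]

theorem prime_mem {p : ℕ} (hp : p.Prime) (h : p ∣ Nat.card G) :
    p ∈ Set.range (orderOf : G → ℕ) := by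
  have := Fact.mk hp
  exact exists_prime_orderOf_dvd_card' p h

theorem five_orders (hFT : OddOrderThm.{u}) [IsSimpleGroup G] (hG : ¬ IsMulCommutative G)
    (h5 : (Set.range (orderOf : G → ℕ)).ncard ≤ 5) :
    Nonempty (G ≃* ↥(alternatingGroup (Fin 5))) ∨ Nonempty (G ≃* ↥(alternatingGroup (Fin 6))) ∨
      (∃ (F : Type) (_ : Field F) (_ : Fintype F), (Fintype.card F = 7 ∨ Fintype.card F = 8) ∧
        Nonempty (G ≃* Matrix.ProjectiveSpecialLinearGroup (Fin 2) F)) := by
  have hs : ¬ Group.IsSolvable G := fun hs =>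
    hG ⟨⟨IsSimpleGroup.comm_iff_isSolvable.mpr hs⟩⟩
  have hf := Set.finite_range (orderOf : G → ℕ)
  have h1 : 1 ∈ Set.range (orderOf : G → ℕ) := ⟨1, orderOf_one⟩
  have hsub : {n : ℕ | n ∈ Set.range (orderOf : G → ℕ) ∧ 1 < n ∧ ¬ n.Prime}.Subsingleton := by
    rintro a ⟨a1, a2, a3⟩ b ⟨b1, b2, b3⟩
    by_contra hab
    obtain ⟨p, hp, p1, p2⟩ : ∃ p, p.Prime ∧ p ∣ Nat.card G ∧ p ≠ 2 := by
      by_contra! h
      exact hs (Char.burnside_two_primes Nat.prime_two Nat.prime_two fun r h1 h2 => Or.inl (h r h1 h2))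
    obtain ⟨q, hq, q1, q2⟩ : ∃ q, q.Prime ∧ q ∣ Nat.card G ∧ ¬ (q = 2 ∨ q = p) := by
      by_contra! h
      exact hs (Char.burnside_two_primes Nat.prime_two hp h)
    have h2 := hp.two_le
    have h3 := hq.two_le
    have h4 : ∀ r : ℕ, r.Prime → r ≠ a ∧ r ≠ b := fun r hr =>
      ⟨fun e => a3 (e ▸ hr), fun e => b3 (e ▸ hr)⟩
    have := h4 2 Nat.prime_two
    have := h4 p hp
    have := h4 q hq
    exact six hf h5 (by simp; omega) h1 (prime_mem Nat.prime_two (L34.even_of_FT hFT hs))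
      (prime_mem hp p1) (prime_mem hq q1) a1 b1
  have le5 : (∀ d ∈ Set.range (orderOf : G → ℕ), d ≤ 5) → 3 ∈ Set.range (orderOf : G → ℕ) →
      5 ∈ Set.range (orderOf : G → ℕ) → Nonempty (G ≃* ↥(alternatingGroup (Fin 5))) ∨
        Nonempty (G ≃* ↥(alternatingGroup (Fin 6))) := fun h ⟨x, hx⟩ ⟨y, hy⟩ =>
    Sp5.Le5.classify (fun x => h _ ⟨x, rfl⟩) (fun N hN h2 => hN.eq_bot_or_eq_top.resolve_right
      fun e => hs (by
        have := Fact.mk Nat.prime_two
        have := (h2.of_equiv (e ▸ Subgroup.topEquiv : N ≃* G)).isNilpotent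
        infer_instance)) (L34.even_of_FT hFT hs) (hx ▸ orderOf_dvd_natCard x)
        (hy ▸ orderOf_dvd_natCard y)
  rcases classify hFT hsub with h | ⟨F, _, _, h, ⟨e⟩⟩ | ⟨F, _, _, h, ⟨e⟩⟩ | ⟨F, _, _, h, ⟨e⟩⟩ |
    ⟨F, _, _, n, r, s, hr, hs, h2, h3, h, ⟨e⟩⟩ | ⟨F, _, _, n, r, h2, hr, h3, h, ⟨e⟩⟩
  · have := Fact.mk h
    have := isCyclic_of_prime_card (α := G) rfl
    exact absurd IsCyclic.isMulCommutative hG
  · rcases h with h | h | h | h | h | h | h
    · rw [spec_odd (m := 1) (a := 2) Nat.prime_five h rfl e] at le5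
      refine (le5 (fun d hd => ?_) (by simp) (by simp)).imp_right Or.inl
      rcases hd with hd | hd | hd <;> have := Nat.le_of_dvd (by norm_num) hd <;> omega
    · exact Or.inr (Or.inr ⟨F, _, _, Or.inl h, ⟨e⟩⟩)
    · exact Or.inr (Or.inr ⟨F, _, _, Or.inr h, ⟨e⟩⟩)
    · rw [spec_odd (m := 2) (a := 4) Nat.prime_three h rfl e] at le5
      refine (le5 (fun d hd => ?_) (by simp) (by simp)).imp_right Or.inl
      rcases hd with hd | hd | hd <;> have := Nat.le_of_dvd (by norm_num) hd <;> omega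
    · rw [spec_odd (m := 1) (a := 5) (by norm_num : Nat.Prime 11) h rfl e] at h5 hf
      exact (six hf h5 (a := 1) (b := 2) (c := 3) (d := 5) (e := 6) (f := 11) (by decide)
        (by simp) (by simp) (by simp) (by simp) (by simp) (by simp)).elim
    · rw [spec_odd (m := 1) (a := 6) (by norm_num : Nat.Prime 13) h rfl e] at h5 hf
      exact (six hf h5 (a := 1) (b := 2) (c := 3) (d := 6) (e := 7) (f := 13) (by decide)
        (by simp) (by simp) (by simp) (by simp) (by simp) (by simp)).elim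
    · rw [range_eq e, spec_psl2_even (n := 4) h] at h5 hf
      exact (six hf h5 (a := 1) (b := 2) (c := 3) (d := 5) (e := 15) (f := 17) (by decide)
        (by simp) (by simp) (by simp) (by simp) (by simp) (by simp)).elim
  · have h2 := L34.card_psl3 (F := F)
    rw [h, ← Nat.card_congr e.toEquiv] at h2
    have h3 : Nat.card G = 20160 := by norm_num at h2; omega
    have := charP_two (m := 2) h
    exact (six hf h5 (a := 1) (b := 2) (c := 3) (d := 5) (e := 7) (f := 4) (by decide) h1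
      (prime_mem Nat.prime_two (by norm_num [h3])) (prime_mem Nat.prime_three (by norm_num [h3]))
      (prime_mem Nat.prime_five (by norm_num [h3])) (prime_mem (by norm_num) (by norm_num [h3]))
      (range_eq e ▸ psl3_four CharTwo.two_eq_zero)).elim
  · have : Suzuki.IsSz F 1 := ⟨le_rfl, h⟩
    have h2 := fun d => sz_orders (k := 1) (d := d) e
    obtain ⟨x, hx⟩ := h2 4 (Or.inl rfl)
    have h3 : Nat.card G = 8 ^ 2 * (8 ^ 2 + 1) * (8 - 1) := by
      rw [Nat.card_congr (e.trans (Suzuki.szEquiv (m := 1) F).symm).toEquiv, Suzuki.card_Sz, h]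
    exact (six hf h5 (a := 1) (b := 2) (c := 4) (d := 5) (e := 7) (f := 13) (by decide) h1
      (prime_mem Nat.prime_two (by norm_num [h3])) ⟨x, hx⟩
      (prime_mem Nat.prime_five (by norm_num [h3])) (prime_mem (by norm_num) (by norm_num [h3]))
      (prime_mem (by norm_num) (by norm_num [h3]))).elim
  · have h4 := hr.two_le
    have h6 : 3 ∣ 3 ^ n := dvd_pow_self 3 (by rintro rfl; simp at h2; omega)
    rw [spec_odd (m := n) (a := r) Nat.prime_three h (by omega) e, show r + 1 = 2 * s by omega]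
      at h5 hf
    exact (six hf h5 (a := 1) (b := 2) (c := 3) (d := r) (e := s) (f := 2 * s) (by simp; omega)
      (by simp) (by simp) (by simp) (by simp) (by simp) (by simp)).elim
  · have h4 := hr.two_le
    by_cases h6 : r = 3
    · exact Or.inr (Or.inr ⟨F, _, _, Or.inr (by omega), ⟨e⟩⟩)
    have h7 : 2 ∣ 2 ^ n := dvd_pow_self 2 (by rintro rfl; simp at h3; omega)
    rw [range_eq e, spec_psl2_even h, h3] at h5 hf
    exact (six hf h5 (a := 1) (b := 2) (c := 3) (d := r) (e := 3 * r) (f := 2 ^ n - 1)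
      (by simp; omega) (by simp) (by simp) (by simp) (by simp) (by simp) (by simp)).elim

theorem ncard_orders_le : (Set.range (orderOf : G → ℕ)).ncard ≤
    Nat.card (MulAction.orbitRel.Quotient (MulAut G) G) := by
  let f : MulAction.orbitRel.Quotient (MulAut G) G → ℕ := Quotient.lift orderOf
    fun a b ⟨g, hg⟩ => hg ▸ g.orderOf_eq b
  rw [show Set.range (orderOf : G → ℕ) = Set.range f from
    Set.ext fun _ => ⟨fun ⟨x, hx⟩ => ⟨⟦x⟧, hx⟩, fun ⟨x, hx⟩ => Quotient.inductionOn x
      (fun x hx => ⟨x, hx⟩) hx⟩]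
  exact Finite.card_range_le f

end Cfsg.Agent.OneC
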